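import Cfsg.Agent.Lib.Helper39.U33.Cfg
import Cfsg.Agent.Lib.Helper3.Table

set_option autoImplicit false

namespace Cfsg.Agent.Lib.Helper39.U33

open Cfsg
open scoped ComplexConjugate

variable {G : Type*} [Group G]

/-- a class function on `G` summed against any function on a subgroup `H` with `z ∈ H ≤ U` -/
theorem Cfg.sum_split (𝒞 : Cfg G) {χ : G → ℂ} (hχ : IsClassFunction G χ) (H : Subgroup G) [Fintype H]
    (hHU : H ≤ 𝒞.U) (hzH : 𝒞.z ∈ H) (φ : H → ℂ) :
    ∑ s : H, χ s * φ s = χ 1 * φ 1 + χ 𝒞.z * (φ ⟨𝒞.z, hzH⟩ + φ (⟨𝒞.z, hzH⟩⁻¹))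
      + χ 𝒞.u * (∑ s : H, φ s - φ 1 - φ ⟨𝒞.z, hzH⟩ - φ (⟨𝒞.z, hzH⟩⁻¹)) := by
  classical
  set zH : H := ⟨𝒞.z, hzH⟩ with hzHdef
  have hz1 : zH ≠ 1 := by
    intro h
    exact 𝒞.hz1 (congrArg Subtype.val h)
  have hz3 : zH ^ 3 = 1 := by
    apply Subtype.ext
    simpa using 𝒞.hz3
  have hzi1 : zH⁻¹ ≠ 1 := by
    intro h
    exact hz1 (inv_eq_one.mp h)
  have hziz : zH⁻¹ ≠ zH := by
    intro h
    apply hz1
    have h2 : zH * zH = 1 := by
      calc zH * zH = zH⁻¹ * zH := by rw [h]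
        _ = 1 := inv_mul_cancel _
    calc zH = zH ^ 3 * (zH * zH)⁻¹ := by group
      _ = 1 := by rw [hz3, h2]; simp
  -- the difference is supported on three points
  have key : ∀ s : H, s ∉ ({1, zH, zH⁻¹} : Finset H) → (χ s - χ 𝒞.u) * φ s = 0 := by
    intro s hs
    have hs' : (s : G) ∉ Subgroup.zpowers 𝒞.z := by
      intro hmem
      apply hs
      obtain ⟨k, hk⟩ := Subgroup.mem_zpowers_iff.mp hmem
      have hk' : zH ^ k = s := by
        apply Subtype.ext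
        simpa using hk
      have hmod : zH ^ k = zH ^ (k % 3) := by
        conv_lhs => rw [← Int.mul_ediv_add_emod k 3]
        rw [zpow_add, zpow_mul]
        have : zH ^ (3 : ℤ) = 1 := by exact_mod_cast hz3
        rw [this, one_zpow, one_mul]
      have h03 : 0 ≤ k % 3 := Int.emod_nonneg _ (by norm_num)
      have h33 : k % 3 < 3 := Int.emod_lt_of_pos _ (by norm_num)
      have hcases : k % 3 = 0 ∨ k % 3 = 1 ∨ k % 3 = 2 := by omega
      rw [← hk', hmod]
      rcases hcases with h | h | h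
      · rw [h]; simp
      · rw [h]; simp
      · rw [h]
        have : zH ^ (2 : ℤ) = zH⁻¹ := by
          have h3 : zH ^ (3 : ℤ) = 1 := by exact_mod_cast hz3
          calc zH ^ (2 : ℤ) = zH ^ (3 : ℤ) * zH⁻¹ := by group
            _ = zH⁻¹ := by rw [h3, one_mul]
        rw [this]; simp
    have hc := 𝒞.huc s (hHU s.2) hs'
    rw [Helper3.IsClassFunction.eq_of_isConj hχ hc, sub_self, zero_mul]
  have hsum : ∑ s : H, (χ s - χ 𝒞.u) * φ s
      = ∑ s ∈ ({1, zH, zH⁻¹} : Finset H), (χ s - χ 𝒞.u) * φ s := by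
    symm
    apply Finset.sum_subset (Finset.subset_univ _)
    intro s _ hs
    exact key s hs
  have h3 : ∑ s ∈ ({1, zH, zH⁻¹} : Finset H), (χ s - χ 𝒞.u) * φ s
      = (χ 1 - χ 𝒞.u) * φ 1 + (χ 𝒞.z - χ 𝒞.u) * φ zH + (χ 𝒞.z - χ 𝒞.u) * φ zH⁻¹ := by
    rw [Finset.sum_insert, Finset.sum_insert, Finset.sum_singleton]
    · have e1 : χ ((zH⁻¹ : H) : G) = χ 𝒞.z := by
        have : ((zH⁻¹ : H) : G) = 𝒞.z⁻¹ := rfl
        rw [this]
        exact Helper3.IsClassFunction.eq_of_isConj hχ 𝒞.hzz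
      rw [e1]
      have e2 : ((zH : H) : G) = 𝒞.z := rfl
      have e3 : ((1 : H) : G) = 1 := rfl
      rw [e2, e3]
      ring
    · simp only [Finset.mem_singleton]
      exact fun h => hziz h.symm
    · simp only [Finset.mem_insert, Finset.mem_singleton, not_or]
      exact ⟨fun h => hz1 h.symm, fun h => hzi1 h.symm⟩
  have hexp : ∑ s : H, (χ s - χ 𝒞.u) * φ s = ∑ s : H, χ s * φ s - χ 𝒞.u * ∑ s : H, φ s := by
    rw [Finset.mul_sum, ← Finset.sum_sub_distrib]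
    refine Finset.sum_congr rfl fun s _ => ?_
    ring
  rw [hsum, h3] at hexp
  linear_combination -hexp

end Cfsg.Agent.Lib.Helper39.U33
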