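import Cfsg.Agent.Lib.Helper39.U33.Cfg
import Cfsg.Agent.Lib.Helper3.Perm

set_option autoImplicit false

namespace Cfsg.Agent.Lib.Helper39.U33

open Cfsg
open scoped ComplexConjugate

variable {G : Type*} [Group G]

/-- the multiplicity of a linear character of a subgroup in a character is a natural number -/
theorem mult_nat {χ : G → ℂ} (hχ : IsCharacter G χ) (H : Subgroup G) [Fintype H] (f : H →* ℂˣ) :
    ∃ n : ℕ, ∑ s : H, χ s * conj ((f s : ℂˣ) : ℂ) = (n : ℂ) * (Nat.card H : ℂ) := by
  obtain ⟨n, hn⟩ := Helper15.inner_nat (Helper15.char_restrict hχ H)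
    (Helper15.irr_char (Helper3.isIrrCharacter_of_hom f))
  refine ⟨n, ?_⟩
  unfold classInner at hn
  have hc : (Nat.card H : ℂ) ≠ 0 := by exact_mod_cast Nat.card_pos.ne'
  rw [← hn]
  field_simp

/-- a nontrivial linear character sums to zero (also after conjugation) -/
theorem sum_conj_hom {H : Type*} [Group H] [Fintype H] (f : H →* ℂˣ) (hf : f ≠ 1) :
    ∑ s : H, conj ((f s : ℂˣ) : ℂ) = 0 := by
  classical
  have h0 : ∑ s : H, ((Units.coeHom ℂ).comp f) s = 0 := by
    apply sum_hom_units_eq_zero
    intro h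
    apply hf
    ext s
    have := DFunLike.congr_fun h s
    simpa using this
  have h1 : ∑ s : H, ((f s : ℂˣ) : ℂ) = 0 := by simpa using h0
  rw [← map_sum, h1, map_zero]

/-- a group of order 9 has a linear character not killing a given nontrivial element -/
theorem exists_hom_nine {A : Type*} [Group A] (hA : Nat.card A = 9) {x : A} (hx : x ≠ 1) :
    ∃ μ : A →* ℂˣ, μ x ≠ 1 := by
  have : Fact (Nat.Prime 3) := ⟨by norm_num⟩
  have : Finite A := Nat.finite_of_card_ne_zero (by rw [hA]; norm_num)
  let _ : CommGroup A := IsPGroup.commGroupOfCardEqPrimeSq (p := 3) (by rw [hA]; norm_num)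
  exact CommGroup.exists_apply_ne_one_of_hasEnoughRootsOfUnity A ℂ hx

end Cfsg.Agent.Lib.Helper39.U33
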