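import Cfsg.Agent.Lib.Helper39.U33.A1
import Cfsg.Agent.Lib.Helper39.U33.A2

set_option autoImplicit false

namespace Cfsg.Agent.Lib.Helper39.U33

open Cfsg
open scoped ComplexConjugate

variable {G : Type*} [Group G] [Finite G]

/-- the three multiplicities -/
theorem Cfg.abc (𝒞 : Cfg G) {χ : G → ℂ} (hχ : IsCharacter G χ) :
    ∃ a b c : ℕ, χ 1 = (a : ℂ) + 8 * b + 6 * c ∧ χ 𝒞.z = (a : ℂ) + 8 * b - 3 * c ∧
      χ 𝒞.u = (a : ℂ) - b := by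
  classical
  have hcf : IsClassFunction G χ := Helper15.char_cf hχ
  have := Fintype.ofFinite 𝒞.U
  have := Fintype.ofFinite (Subgroup.centralizer ({𝒞.u} : Set G))
  -- the trivial character of `U`
  obtain ⟨a, ha⟩ := mult_nat hχ 𝒞.U (1 : 𝒞.U →* ℂˣ)
  rw [𝒞.sum_split hcf 𝒞.U le_rfl 𝒞.hzU (fun s => conj (((1 : 𝒞.U →* ℂˣ) s : ℂˣ) : ℂ))] at ha
  have hs1 : ∑ s : 𝒞.U, conj (((1 : 𝒞.U →* ℂˣ) s : ℂˣ) : ℂ) = 27 := by
    simp only [MonoidHom.one_apply, Units.val_one, map_one, Finset.sum_const, Finset.card_univ,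
      nsmul_eq_mul, mul_one]
    rw [← Nat.card_eq_fintype_card, 𝒞.hU]
    norm_num
  rw [hs1, 𝒞.hU] at ha
  simp only [MonoidHom.one_apply, Units.val_one, map_one] at ha
  -- the character `ψ` of `U`
  obtain ⟨b, hb⟩ := mult_nat hχ 𝒞.U 𝒞.ψ
  rw [𝒞.sum_split hcf 𝒞.U le_rfl 𝒞.hzU (fun s => conj ((𝒞.ψ s : ℂˣ) : ℂ))] at hb
  have hψ1 : 𝒞.ψ ≠ 1 := by
    intro h
    apply 𝒞.hψu
    rw [h]
    rfl
  rw [sum_conj_hom 𝒞.ψ hψ1, 𝒞.hU] at hb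
  simp only [map_inv, 𝒞.hψz, map_one, inv_one, Units.val_one] at hb
  -- a character `μ` of the centralizer of `u`
  have hzA : 𝒞.z ∈ Subgroup.centralizer ({𝒞.u} : Set G) := by
    rw [Subgroup.mem_centralizer_singleton_iff]
    exact 𝒞.hzu
  have hzA1 : (⟨𝒞.z, hzA⟩ : Subgroup.centralizer ({𝒞.u} : Set G)) ≠ 1 := by
    intro h
    exact 𝒞.hz1 (congrArg Subtype.val h)
  obtain ⟨μ, hμ⟩ := exists_hom_nine 𝒞.hCu hzA1
  obtain ⟨c, hc⟩ := mult_nat hχ (Subgroup.centralizer ({𝒞.u} : Set G)) μ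
  rw [𝒞.sum_split hcf _ 𝒞.hCuU hzA (fun s => conj ((μ s : ℂˣ) : ℂ))] at hc
  have hμ1 : μ ≠ 1 := by
    intro h
    apply hμ
    rw [h]
    rfl
  rw [sum_conj_hom μ hμ1, 𝒞.hCu] at hc
  set ω : ℂˣ := μ ⟨𝒞.z, hzA⟩ with hω
  have hω3 : ω ^ 3 = 1 := by
    rw [hω, ← map_pow]
    have : (⟨𝒞.z, hzA⟩ : Subgroup.centralizer ({𝒞.u} : Set G)) ^ 3 = 1 := by
      apply Subtype.ext
      simpa using 𝒞.hz3
    rw [this, map_one]
  have hω3' : (ω : ℂ) ^ 3 = 1 := by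
    rw [← Units.val_pow_eq_pow_val, hω3, Units.val_one]
  have hω1' : (ω : ℂ) ≠ 1 := by
    intro h
    exact hμ (Units.ext h)
  have hquad : (ω : ℂ) ^ 2 + ω + 1 = 0 := by
    have h : ((ω : ℂ) - 1) * ((ω : ℂ) ^ 2 + ω + 1) = 0 := by linear_combination hω3'
    rcases mul_eq_zero.mp h with h | h
    · exact absurd (sub_eq_zero.mp h) hω1'
    · exact h
  have hinv : ((ω⁻¹ : ℂˣ) : ℂ) = (ω : ℂ) ^ 2 := by
    rw [Units.val_inv_eq_inv_val]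
    have h0 : (ω : ℂ) ≠ 0 := ω.ne_zero
    field_simp
    linear_combination -hω3'
  have hsumω : conj (ω : ℂ) + conj ((ω⁻¹ : ℂˣ) : ℂ) = -1 := by
    rw [← map_add, hinv]
    have : (ω : ℂ) + (ω : ℂ) ^ 2 = -1 := by linear_combination hquad
    rw [this]
    simp
  simp only [map_inv, map_one, Units.val_one] at hc
  rw [← hω] at hc
  push_cast at ha hb hc hsumω
  have hc' : χ 1 - χ 𝒞.z = 9 * c := by
    linear_combination hc - (χ 𝒞.z - χ 𝒞.u) * hsumω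
  refine ⟨a, b, c, ?_, ?_, ?_⟩
  · linear_combination (1 / 3 : ℂ) * hb + (1 / 27 : ℂ) * (ha - hb) + (2 / 3 : ℂ) * hc'
  · linear_combination (1 / 3 : ℂ) * hb + (1 / 27 : ℂ) * (ha - hb) - (1 / 3 : ℂ) * hc'
  · linear_combination (1 / 27 : ℂ) * (ha - hb)

end Cfsg.Agent.Lib.Helper39.U33
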