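import Cfsg.Agent.Lib.Helper39.U33.Cfg
import Cfsg.Agent.Lib.Helper3.Table

set_option autoImplicit false

namespace Cfsg.Agent.Lib.Helper39.U33

open Cfsg
open scoped ComplexConjugate

variable {G : Type*} [Group G] [Fintype G] [Fintype (IrrCharacter G)]

/-- the second moments, from column orthogonality at `1`, `z`, `u` -/
theorem Cfg.moments (𝒞 : Cfg G) (hG : Nat.card G = 6048) (a b c : IrrCharacter G → ℕ)
    (h1 : ∀ χ : IrrCharacter G, (χ : G → ℂ) 1 = (a χ : ℂ) + 8 * b χ + 6 * c χ)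
    (hz : ∀ χ : IrrCharacter G, (χ : G → ℂ) 𝒞.z = (a χ : ℂ) + 8 * b χ - 3 * c χ)
    (hu : ∀ χ : IrrCharacter G, (χ : G → ℂ) 𝒞.u = (a χ : ℂ) - b χ) :
    ∑ χ, a χ ^ 2 = 16 ∧ ∑ χ, a χ * b χ = 8 ∧ ∑ χ, b χ ^ 2 = 9 ∧ ∑ χ, a χ * c χ = 24 ∧
      ∑ χ, b χ * c χ = 24 ∧ ∑ χ, c χ ^ 2 = 76 := by
  classical
  have hu1 : 𝒞.u ≠ 1 := by
    intro h
    apply 𝒞.hψu
    have : (⟨𝒞.u, 𝒞.huU⟩ : 𝒞.U) = 1 := Subtype.ext h
    rw [this, map_one]
  have hC1 : Nat.card (Subgroup.centralizer ({1} : Set G)) = 6048 := by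
    have : Subgroup.centralizer ({1} : Set G) = ⊤ := by
      rw [eq_top_iff]
      intro g _
      rw [Subgroup.mem_centralizer_singleton_iff]
      simp
    rw [this, Subgroup.card_top, hG]
  have c1 : ∀ χ : IrrCharacter G, conj ((χ : G → ℂ) 1) = (a χ : ℂ) + 8 * b χ + 6 * c χ := by
    intro χ; rw [h1]; simp only [map_add, map_mul, map_sub, Complex.conj_natCast, Complex.conj_ofNat]
  have cz : ∀ χ : IrrCharacter G, conj ((χ : G → ℂ) 𝒞.z) = (a χ : ℂ) + 8 * b χ - 3 * c χ := by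
    intro χ; rw [hz]; simp only [map_add, map_mul, map_sub, Complex.conj_natCast, Complex.conj_ofNat]
  have cu : ∀ χ : IrrCharacter G, conj ((χ : G → ℂ) 𝒞.u) = (a χ : ℂ) - b χ := by
    intro χ; rw [hu]; simp only [map_add, map_mul, map_sub, Complex.conj_natCast, Complex.conj_ofNat]
  have o11 := Helper3.column_orthogonality (G := G) 1 1
  have o1z := Helper3.column_orthogonality (G := G) 1 𝒞.z
  have o1u := Helper3.column_orthogonality (G := G) 1 𝒞.u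
  have ozz := Helper3.column_orthogonality (G := G) 𝒞.z 𝒞.z
  have ozu := Helper3.column_orthogonality (G := G) 𝒞.z 𝒞.u
  have ouz := Helper3.column_orthogonality (G := G) 𝒞.u 𝒞.z
  have ouu := Helper3.column_orthogonality (G := G) 𝒞.u 𝒞.u
  rw [if_pos (IsConj.refl _), hC1] at o11
  rw [if_neg (by
    intro h
    exact 𝒞.hz1 (isConj_one_right.mp h))] at o1z
  rw [if_neg (by
    intro h
    exact hu1 (isConj_one_right.mp h))] at o1u
  rw [if_pos (IsConj.refl _), 𝒞.hCz] at ozz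
  rw [if_pos (IsConj.refl _), 𝒞.hCu] at ouu
  simp only [c1, cz, cu] at o11 o1z o1u ozz ozu ouz ouu
  simp only [h1, hz, hu] at o11 o1z o1u ozz ozu ouz ouu
  have hnc : ¬ IsConj 𝒞.z 𝒞.u := by
    intro h
    rw [if_pos h, 𝒞.hCz] at ozu
    rw [if_pos (isConj_comm.mp h), 𝒞.hCu] at ouz
    have : (∑ χ : IrrCharacter G, ((a χ : ℂ) + 8 * b χ - 3 * c χ) * ((a χ : ℂ) - b χ))
        = ∑ χ : IrrCharacter G, ((a χ : ℂ) - b χ) * ((a χ : ℂ) + 8 * b χ - 3 * c χ) :=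
      Finset.sum_congr rfl fun χ _ => mul_comm _ _
    rw [ozu, ouz] at this
    norm_num at this
  rw [if_neg hnc] at ozu
  set Saa : ℂ := ∑ χ : IrrCharacter G, (a χ : ℂ) ^ 2 with hSaa
  set Sab : ℂ := ∑ χ : IrrCharacter G, (a χ : ℂ) * b χ with hSab
  set Sbb : ℂ := ∑ χ : IrrCharacter G, (b χ : ℂ) ^ 2 with hSbb
  set Sac : ℂ := ∑ χ : IrrCharacter G, (a χ : ℂ) * c χ with hSac
  set Sbc : ℂ := ∑ χ : IrrCharacter G, (b χ : ℂ) * c χ with hSbc
  set Scc : ℂ := ∑ χ : IrrCharacter G, (c χ : ℂ) ^ 2 with hScc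
  have e11 : ∑ χ : IrrCharacter G, ((a χ : ℂ) + 8 * b χ + 6 * c χ) * ((a χ : ℂ) + 8 * b χ + 6 * c χ)
      = Saa + 16 * Sab + 64 * Sbb + 12 * Sac + 96 * Sbc + 36 * Scc := by
    simp only [hSaa, hSab, hSbb, hSac, hSbc, hScc, Finset.mul_sum, ← Finset.sum_add_distrib]
    exact Finset.sum_congr rfl fun χ _ => by ring
  have e1z : ∑ χ : IrrCharacter G, ((a χ : ℂ) + 8 * b χ + 6 * c χ) * ((a χ : ℂ) + 8 * b χ - 3 * c χ)
      = Saa + 16 * Sab + 64 * Sbb + 3 * Sac + 24 * Sbc + (-18) * Scc := by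
    simp only [hSaa, hSab, hSbb, hSac, hSbc, hScc, Finset.mul_sum, ← Finset.sum_add_distrib]
    exact Finset.sum_congr rfl fun χ _ => by ring
  have e1u : ∑ χ : IrrCharacter G, ((a χ : ℂ) + 8 * b χ + 6 * c χ) * ((a χ : ℂ) - b χ)
      = Saa + 7 * Sab + (-8) * Sbb + 6 * Sac + (-6) * Sbc := by
    simp only [hSaa, hSab, hSbb, hSac, hSbc, hScc, Finset.mul_sum, ← Finset.sum_add_distrib]
    exact Finset.sum_congr rfl fun χ _ => by ring
  have ezz : ∑ χ : IrrCharacter G, ((a χ : ℂ) + 8 * b χ - 3 * c χ) * ((a χ : ℂ) + 8 * b χ - 3 * c χ)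
      = Saa + 16 * Sab + 64 * Sbb + (-6) * Sac + (-48) * Sbc + 9 * Scc := by
    simp only [hSaa, hSab, hSbb, hSac, hSbc, hScc, Finset.mul_sum, ← Finset.sum_add_distrib]
    exact Finset.sum_congr rfl fun χ _ => by ring
  have ezu : ∑ χ : IrrCharacter G, ((a χ : ℂ) + 8 * b χ - 3 * c χ) * ((a χ : ℂ) - b χ)
      = Saa + 7 * Sab + (-8) * Sbb + (-3) * Sac + 3 * Sbc := by
    simp only [hSaa, hSab, hSbb, hSac, hSbc, hScc, Finset.mul_sum, ← Finset.sum_add_distrib]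
    exact Finset.sum_congr rfl fun χ _ => by ring
  have euu : ∑ χ : IrrCharacter G, ((a χ : ℂ) - b χ) * ((a χ : ℂ) - b χ)
      = Saa + (-2) * Sab + Sbb := by
    simp only [hSaa, hSab, hSbb, hSac, hSbc, hScc, Finset.mul_sum, ← Finset.sum_add_distrib]
    exact Finset.sum_congr rfl fun χ _ => by ring
  rw [e11] at o11
  rw [e1z] at o1z
  rw [e1u] at o1u
  rw [ezz] at ozz
  rw [ezu] at ozu
  rw [euu] at ouu
  push_cast at o11 ozz ouu
  have raa : Saa = 16 := by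
    linear_combination (1/729 : ℂ) * o11 + (4/729 : ℂ) * o1z + (16/243 : ℂ) * o1u
      + (4/729 : ℂ) * ozz + (32/243 : ℂ) * ozu + (64/81 : ℂ) * ouu
  have rab : Sab = 8 := by
    linear_combination (1/729 : ℂ) * o11 + (4/729 : ℂ) * o1z + (7/243 : ℂ) * o1u
      + (4/729 : ℂ) * ozz + (14/243 : ℂ) * ozu + (-8/81 : ℂ) * ouu
  have rbb : Sbb = 9 := by
    linear_combination (1/729 : ℂ) * o11 + (4/729 : ℂ) * o1z + (-2/243 : ℂ) * o1u
      + (4/729 : ℂ) * ozz + (-4/243 : ℂ) * ozu + (1/81 : ℂ) * ouu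
  have rac : Sac = 24 := by
    linear_combination (1/243 : ℂ) * o11 + (1/243 : ℂ) * o1z + (8/81 : ℂ) * o1u
      + (-2/243 : ℂ) * ozz + (-8/81 : ℂ) * ozu
  have rbc : Sbc = 24 := by
    linear_combination (1/243 : ℂ) * o11 + (1/243 : ℂ) * o1z + (-1/81 : ℂ) * o1u
      + (-2/243 : ℂ) * ozz + (1/81 : ℂ) * ozu
  have rcc : Scc = 76 := by
    linear_combination (1/81 : ℂ) * o11 + (-2/81 : ℂ) * o1z + (1/81 : ℂ) * ozz
  rw [hSaa] at raa
  rw [hSab] at rab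
  rw [hSbb] at rbb
  rw [hSac] at rac
  rw [hSbc] at rbc
  rw [hScc] at rcc
  refine ⟨?_, ?_, ?_, ?_, ?_, ?_⟩
  · exact_mod_cast raa
  · exact_mod_cast rab
  · exact_mod_cast rbb
  · exact_mod_cast rac
  · exact_mod_cast rbc
  · exact_mod_cast rcc

end Cfsg.Agent.Lib.Helper39.U33
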