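import Cfsg.Agent.Lib.Helper39.U33.Cfg
import Cfsg.Agent.Lib.Helper3.Table
import Cfsg.Agent.Lib.Helper3.Perm
import Cfsg.Agent.Lib.Helper80.Inflation

set_option autoImplicit false

namespace Cfsg.Agent.Lib.Helper39.U33

open Cfsg

variable {G : Type*} [Group G] [Finite G]

/-- in a simple group an irreducible character with a nontrivial element in its kernel is trivial -/
theorem triv_of_ker (hs : IsSimpleGroup G) {χ : G → ℂ} (hχ : IsIrrCharacter G χ) {z : G} (hz1 : z ≠ 1)
    (h : χ z = χ 1) : χ = fun _ => 1 := by
  classical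
  have := Fintype.ofFinite G
  have hn' := Helper80.charKer_normal (Helper15.irr_char hχ)
  rcases hs.eq_bot_or_eq_top_of_normal (Helper80.charKer χ (Helper15.irr_char hχ)) hn' with hb | ht
  · exfalso
    have hz : z ∈ Helper80.charKer χ (Helper15.irr_char hχ) := h
    rw [hb, Subgroup.mem_bot] at hz
    exact hz1 hz
  · have hall : ∀ g, χ g = χ 1 := by
      intro g
      have : g ∈ Helper80.charKer χ (Helper15.irr_char hχ) := by rw [ht]; trivial
      exact this
    have h2 := Helper15.irr_inner_self hχ
    unfold classInner at h2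
    simp_rw [hall] at h2
    obtain ⟨k, hk⟩ := Helper15.char_one_nat (Helper15.irr_char hχ)
    rw [hk] at h2
    rw [Finset.sum_const, Finset.card_univ, nsmul_eq_mul, Complex.conj_natCast,
      Nat.card_eq_fintype_card] at h2
    have hc : (Fintype.card G : ℂ) ≠ 0 := by exact_mod_cast Fintype.card_ne_zero
    rw [← mul_assoc, inv_mul_cancel₀ hc, one_mul] at h2
    have h3 : k * k = 1 := by exact_mod_cast h2
    have h4 : k = 1 := Nat.eq_one_of_mul_eq_one_right h3
    funext g
    rw [hall g, hk, h4]
    simp

theorem isIrr_one : IsIrrCharacter G (fun _ => (1 : ℂ)) := Helper3.isIrrCharacter_one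

end Cfsg.Agent.Lib.Helper39.U33
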