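import Mathlib

/-!
# The affine group of a commutative ring
-/

set_option autoImplicit false

namespace Cfsg.Agent.Lib.Helper39.U33

/-- the affine group `R ⋊ Rˣ`: the maps `x ↦ k x + t` -/
@[ext] structure Aff (R : Type) [CommRing R] where
  /-- the translation part -/
  t : R
  /-- the linear part -/
  k : Rˣ

namespace Aff

variable {R : Type} [CommRing R]

instance : Mul (Aff R) := ⟨fun x y => ⟨x.t + x.k * y.t, x.k * y.k⟩⟩
instance : One (Aff R) := ⟨⟨0, 1⟩⟩
instance : Inv (Aff R) := ⟨fun x => ⟨-((x.k⁻¹ : Rˣ) * x.t), x.k⁻¹⟩⟩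

@[simp] theorem mul_t (x y : Aff R) : (x * y).t = x.t + x.k * y.t := rfl
@[simp] theorem mul_k (x y : Aff R) : (x * y).k = x.k * y.k := rfl
@[simp] theorem one_t : (1 : Aff R).t = 0 := rfl
@[simp] theorem one_k : (1 : Aff R).k = 1 := rfl
@[simp] theorem inv_t (x : Aff R) : (x⁻¹).t = -((x.k⁻¹ : Rˣ) * x.t) := rfl
@[simp] theorem inv_k (x : Aff R) : (x⁻¹).k = x.k⁻¹ := rfl

instance : Group (Aff R) :=
  Group.ofLeftAxioms
    (by intro a b c; ext <;> simp [mul_assoc, mul_add, add_assoc])
    (by intro a; ext <;> simp)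
    (by intro a; ext <;> simp)

/-- the linear part as a homomorphism -/
def kHom : Aff R →* Rˣ where
  toFun := Aff.k
  map_one' := rfl
  map_mul' _ _ := rfl

/-- the translations as a homomorphism -/
def tHom : Multiplicative R →* Aff R where
  toFun r := ⟨Multiplicative.toAdd r, 1⟩
  map_one' := rfl
  map_mul' a b := by ext <;> simp

/-- the underlying product -/
def equivProd : Aff R ≃ R × Rˣ where
  toFun x := (x.t, x.k)
  invFun p := ⟨p.1, p.2⟩
  left_inv _ := rfl
  right_inv _ := rfl

end Aff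

/-- the ring used for the solvable group of order 6048 -/
abbrev R0 : Type := GaloisField 2 3 × ZMod 18

end Cfsg.Agent.Lib.Helper39.U33
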