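import Cfsg.Agent.Lib.Helper39.U33.Sound

set_option autoImplicit false

namespace Cfsg.Agent.Lib.Helper39.U33

/-- Boolean form of the local conditions -/
def okB (a b c : ℕ) : Bool :=
  !(decide (a * b ≤ 8) && decide (a * c ≤ 24) && decide (b * c ≤ 24) &&
    decide ((a - b) ^ 2 + (b - a) ^ 2 ≤ 8) && decide ((c - 3 * b) ^ 2 + (3 * b - c) ^ 2 ≤ 13) &&
    decide (a + 8 * b + 6 * c ∣ 6048) && !(decide (b = 0) && decide (c = 0))) ||
  decide ((a, b, c) ∈ types18)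

theorem okB_all : ∀ a < 4, ∀ b < 4, ∀ c < 9, okB a b c = true := by
  decide +kernel

theorem mem_types18_aux (a : ℕ) (ha : a < 4) (b : ℕ) (hb : b < 4) (c : ℕ) (hc : c < 9)
    (h1 : a * b ≤ 8) (h2 : a * c ≤ 24) (h3 : b * c ≤ 24) (h4 : (a - b) ^ 2 + (b - a) ^ 2 ≤ 8)
    (h5 : (c - 3 * b) ^ 2 + (3 * b - c) ^ 2 ≤ 13) (h6 : a + 8 * b + 6 * c ∣ 6048)
    (h7 : ¬ (b = 0 ∧ c = 0)) : (a, b, c) ∈ types18 := by
  have h := okB_all a ha b hb c hc
  simp only [okB, Bool.or_eq_true, Bool.not_eq_true', Bool.and_eq_false_iff, decide_eq_false_iff_not,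
    decide_eq_true_eq, Bool.not_eq_false', Bool.and_eq_true] at h
  tauto

theorem sq_id1 (a b : ℕ) : (a - b) ^ 2 + (b - a) ^ 2 + 2 * (a * b) = a ^ 2 + b ^ 2 := by
  rcases le_total a b with h | h
  · obtain ⟨k, rfl⟩ := Nat.exists_eq_add_of_le h
    have h1 : a - (a + k) = 0 := by omega
    have h2 : a + k - a = k := by omega
    rw [h1, h2]; ring
  · obtain ⟨k, rfl⟩ := Nat.exists_eq_add_of_le h
    have h1 : b - (b + k) = 0 := by omega
    have h2 : b + k - b = k := by omega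
    rw [h1, h2]; ring

/-- the arithmetic core -/
theorem arith {ι : Type*} [Fintype ι] (a b c : ι → ℕ) (i0 : ι)
    (hdvd : ∀ i, a i + 8 * b i + 6 * c i ∣ 6048)
    (htriv : ∀ i, b i = 0 → c i = 0 → i = i0) (h0 : a i0 = 1 ∧ b i0 = 0 ∧ c i0 = 0)
    (haa : ∑ i, a i ^ 2 = 16) (hab : ∑ i, a i * b i = 8) (hbb : ∑ i, b i ^ 2 = 9)
    (hac : ∑ i, a i * c i = 24) (hbc : ∑ i, b i * c i = 24) (hcc : ∑ i, c i ^ 2 = 76) :
    (∃ i, 6 ∣ a i + 8 * b i + 6 * c i) ∧ (∃ i, 14 ∣ a i + 8 * b i + 6 * c i) ∧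
      (∃ i, 21 ∣ a i + 8 * b i + 6 * c i) := by
  classical
  obtain ⟨ha0, hb0, hc0⟩ := h0
  set s : Finset ι := Finset.univ.erase i0 with hs
  have her : ∀ f : ι → ℕ, f i0 + ∑ i ∈ s, f i = ∑ i, f i := fun f =>
    Finset.add_sum_erase Finset.univ f (Finset.mem_univ i0)
  have saa : ∑ i ∈ s, a i ^ 2 = 15 := by
    have := her (fun i => a i ^ 2); simp only [ha0, haa] at this; omega
  have sab : ∑ i ∈ s, a i * b i = 8 := by
    have := her (fun i => a i * b i); simp only [ha0, hb0, hab] at this; omega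
  have sbb : ∑ i ∈ s, b i ^ 2 = 9 := by
    have := her (fun i => b i ^ 2); simp only [hb0, hbb] at this; omega
  have sac : ∑ i ∈ s, a i * c i = 24 := by
    have := her (fun i => a i * c i); simp only [ha0, hc0, hac] at this; omega
  have sbc : ∑ i ∈ s, b i * c i = 24 := by
    have := her (fun i => b i * c i); simp only [hb0, hc0, hbc] at this; omega
  have scc : ∑ i ∈ s, c i ^ 2 = 76 := by
    have := her (fun i => c i ^ 2); simp only [hc0, hcc] at this; omega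
  have s1 : ∑ i ∈ s, ((a i - b i) ^ 2 + (b i - a i) ^ 2) = 8 := by
    have h : ∑ i ∈ s, ((a i - b i) ^ 2 + (b i - a i) ^ 2) + 2 * ∑ i ∈ s, a i * b i
        = ∑ i ∈ s, a i ^ 2 + ∑ i ∈ s, b i ^ 2 := by
      rw [Finset.mul_sum, ← Finset.sum_add_distrib, ← Finset.sum_add_distrib]
      exact Finset.sum_congr rfl (fun i _ => sq_id1 (a i) (b i))
    rw [sab, saa, sbb] at h; omega
  have s2 : ∑ i ∈ s, ((c i - 3 * b i) ^ 2 + (3 * b i - c i) ^ 2) = 13 := by
    have h : ∑ i ∈ s, ((c i - 3 * b i) ^ 2 + (3 * b i - c i) ^ 2) + 6 * ∑ i ∈ s, b i * c i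
        = ∑ i ∈ s, c i ^ 2 + 9 * ∑ i ∈ s, b i ^ 2 := by
      rw [Finset.mul_sum, Finset.mul_sum, ← Finset.sum_add_distrib, ← Finset.sum_add_distrib]
      refine Finset.sum_congr rfl (fun i _ => ?_)
      have := sq_id1 (c i) (3 * b i)
      calc (c i - 3 * b i) ^ 2 + (3 * b i - c i) ^ 2 + 6 * (b i * c i)
          = (c i - 3 * b i) ^ 2 + (3 * b i - c i) ^ 2 + 2 * (c i * (3 * b i)) := by ring
        _ = c i ^ 2 + (3 * b i) ^ 2 := this
        _ = c i ^ 2 + 9 * b i ^ 2 := by ring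
    rw [sbc, scc, sbb] at h; omega
  let ty : ι → ℕ × ℕ × ℕ := fun i => (a i, b i, c i)
  have hsum : ((s.val.map ty).map vec).sum = ((8, 13, 9, 8, 24, 24) : V6) := by
    rw [Multiset.map_map]
    change ∑ i ∈ s, vec (ty i) = _
    simp only [Prod.ext_iff, Prod.fst_sum, Prod.snd_sum, vec, ty]
    exact ⟨s1, s2, sbb, sab, sac, sbc⟩
  have hle : ∀ (f : ι → ℕ) (i : ι), i ∈ s → f i ≤ ∑ j ∈ s, f j := fun f i hi =>
    Finset.single_le_sum (f := f) (fun _ _ => Nat.zero_le _) hi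
  have hmem : ∀ i ∈ s, ty i ∈ types18 := by
    intro i hi
    have e1 := hle (fun i => a i ^ 2) i hi
    have e2 := hle (fun i => b i ^ 2) i hi
    have e3 := hle (fun i => c i ^ 2) i hi
    have e4 := hle (fun i => a i * b i) i hi
    have e5 := hle (fun i => a i * c i) i hi
    have e6 := hle (fun i => b i * c i) i hi
    have e7 := hle (fun i => (a i - b i) ^ 2 + (b i - a i) ^ 2) i hi
    have e8 := hle (fun i => (c i - 3 * b i) ^ 2 + (3 * b i - c i) ^ 2) i hi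
    simp only [saa, sbb, scc, sab, sac, sbc, s1, s2] at e1 e2 e3 e4 e5 e6 e7 e8
    apply mem_types18_aux (a i) (by nlinarith) (b i) (by nlinarith) (c i) (by nlinarith)
      e4 e5 e6 e7 e8 (hdvd i)
    rintro ⟨hb, hc⟩
    exact (Finset.ne_of_mem_erase hi) (htriv i hb hc)
  have main : ∀ d : ℕ,
      nosol 150 (types18.filter fun t => !decide (d ∣ deg t)) (8, 13, 9, 8, 24, 24) = true →
      ∃ i, d ∣ a i + 8 * b i + 6 * c i := by
    intro d hd
    by_contra hcon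
    push Not at hcon
    refine nosol_sound 150 _ _ hd (s.val.map ty) ?_ hsum
    intro t ht
    obtain ⟨i, hi, rfl⟩ := Multiset.mem_map.1 ht
    rw [List.mem_filter]
    refine ⟨hmem i hi, ?_⟩
    have := hcon i
    simp only [deg, ty, Bool.not_eq_true']
    exact decide_eq_false this
  exact ⟨main 6 no6, main 14 no14, main 21 no21⟩

end Cfsg.Agent.Lib.Helper39.U33
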