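import Cfsg.Agent.Lib.Helper39.SU.Embed
import Cfsg.Agent.Lib.Helper54.K9

/-!
# The group `SU_3(3)` for the antidiagonal form over the concrete field `K9`: definitions
-/

set_option autoImplicit false
set_option linter.unusedSectionVars false

namespace Cfsg.Agent.Lib.Helper39.U33

open Matrix Cfsg.Agent.Lib.Helper13 Cfsg.Agent.Lib.Helper5 Cfsg.Agent.Lib.Helper39.SUDeg
open Cfsg.Agent.Lib.Helper54

/-- the cardinality of the field -/
theorem hK : Fintype.card K9 = 3 ^ 2 := K9.card_eq'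

/-- the square root of `-1` -/
def sI : K9 := K9.ofN 3

/-- an element of norm `-1` -/
def e0 : K9 := K9.ofN 4

/-- the antidiagonal form -/
def J3 : Matrix (Fin 3) (Fin 3) K9 := !![0, 0, 1; 0, 1, 0; 1, 0, 0]

/-- the base change -/
def C3 : Matrix (Fin 3) (Fin 3) K9 := !![1, 0, -1; e0, 0, e0; 0, 1, 0]

/-- the group -/
abbrev GJ : Subgroup (SpecialLinearGroup (Fin 3) K9) := UJ hK J3

/-- the conjugate transpose, computably -/
def cj (M : Matrix (Fin 3) (Fin 3) K9) : Matrix (Fin 3) (Fin 3) K9 := Matrix.of fun i j => M j i ^ 3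

theorem cj_apply (M : Matrix (Fin 3) (Fin 3) K9) (i j : Fin 3) : cj M i j = M j i ^ 3 := rfl

theorem cT_eq (M : Matrix (Fin 3) (Fin 3) K9) : cT hK M = cj M := by
  ext i j
  exact cT_apply hK M i j

/-- constructor -/
def mkG (M : Matrix (Fin 3) (Fin 3) K9) (hd : M.det = 1) (hf : cj M * J3 * M = J3) : GJ :=
  ⟨⟨M, hd⟩, by
    have : cT hK M * J3 * M = J3 := by rw [cT_eq]; exact hf
    exact this⟩

theorem mkG_val (M : Matrix (Fin 3) (Fin 3) K9) (hd hf) : (mkG M hd hf).1.1 = M := rfl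

theorem GJ_form (g : GJ) : cj g.1.1 * J3 * g.1.1 = J3 := by
  have : cT hK g.1.1 * J3 * g.1.1 = J3 := g.2
  rw [cT_eq] at this
  exact this

theorem GJ_det (g : GJ) : g.1.1.det = 1 := g.1.2

theorem GJ_ext {g h : GJ} (e : g.1.1 = h.1.1) : g = h := Subtype.ext (Subtype.ext e)

theorem GJ_mul_val (g h : GJ) : (g * h).1.1 = g.1.1 * h.1.1 := rfl

theorem GJ_one_val : (1 : GJ).1.1 = 1 := rfl

/-- unipotent matrices -/
def uM (α β : K9) : Matrix (Fin 3) (Fin 3) K9 := !![1, α, β; 0, 1, -α ^ 3; 0, 0, 1]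

/-- diagonal matrices -/
def dM (t : K9) : Matrix (Fin 3) (Fin 3) K9 := !![t, 0, 0; 0, t ^ 2, 0; 0, 0, t ^ 5]

/-- the stabiliser of the first basis vector -/
def UU : Subgroup GJ where
  carrier := {g | g.1.1 *ᵥ (Pi.single 0 1) = Pi.single 0 1}
  one_mem' := by
    change (1 : Matrix (Fin 3) (Fin 3) K9) *ᵥ _ = _
    rw [Matrix.one_mulVec]
  mul_mem' := by
    intro a b ha hb
    change (a.1.1 * b.1.1) *ᵥ _ = _
    change a.1.1 *ᵥ _ = _ at ha
    change b.1.1 *ᵥ _ = _ at hb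
    rw [← Matrix.mulVec_mulVec, hb, ha]
  inv_mem' := by
    intro a ha
    change a.1.1 *ᵥ _ = _ at ha
    change (a⁻¹).1.1 *ᵥ _ = _
    have h1 : (a⁻¹).1.1 * a.1.1 = 1 := by
      rw [← GJ_mul_val, inv_mul_cancel, GJ_one_val]
    calc (a⁻¹).1.1 *ᵥ (Pi.single 0 1) = (a⁻¹).1.1 *ᵥ (a.1.1 *ᵥ (Pi.single 0 1)) := by rw [ha]
      _ = _ := by rw [Matrix.mulVec_mulVec, h1, Matrix.one_mulVec]

theorem mem_UU {g : GJ} : g ∈ UU ↔ g.1.1 *ᵥ (Pi.single 0 1) = Pi.single 0 1 := Iff.rfl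


theorem uM_det (α β : K9) : (uM α β).det = 1 := by
  rw [Matrix.det_fin_three]
  simp [uM]

theorem uM_form : ∀ α β : K9, β + β ^ 3 + α ^ 4 = 0 → cj (uM α β) * J3 * uM α β = J3 := by
  decide +kernel

theorem dM_det : ∀ t : K9, t ≠ 0 → (dM t).det = 1 := by
  decide +kernel

theorem dM_form : ∀ t : K9, t ≠ 0 → cj (dM t) * J3 * dM t = J3 := by
  decide +kernel

/-- unipotent elements -/
def uG (α β : K9) (h : β + β ^ 3 + α ^ 4 = 0) : GJ := mkG (uM α β) (uM_det α β) (uM_form α β h)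

/-- diagonal elements -/
def dG (t : K9) (h : t ≠ 0) : GJ := mkG (dM t) (dM_det t h) (dM_form t h)

theorem uG_val (α β : K9) (h) : (uG α β h).1.1 = uM α β := rfl

theorem dG_val (t : K9) (h) : (dG t h).1.1 = dM t := rfl

/-- the long root element (a unitary transvection) -/
def zz : GJ := uG 0 sI (by decide +kernel)

/-- a regular unipotent element -/
def uu : GJ := uG 1 1 (by decide +kernel)

end Cfsg.Agent.Lib.Helper39.U33
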