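import Cfsg.Prelude.Def_DegreeGraph
import Cfsg.Agent.Lib.Helper15.CharTools

/-!
# The abstract configuration used for `PSU_3(3)`
-/

set_option autoImplicit false

namespace Cfsg.Agent.Lib.Helper39.U33

open Cfsg

/-- a subgroup `U` of order 27 with two elements `z`, `u` whose classes cover `U` -/
structure Cfg (G : Type*) [Group G] where
  U : Subgroup G
  z : G
  u : G
  hU : Nat.card U = 27
  hzU : z ∈ U
  huU : u ∈ U
  hz1 : z ≠ 1
  hz3 : z ^ 3 = 1
  hzz : IsConj z⁻¹ z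
  huc : ∀ g ∈ U, g ∉ Subgroup.zpowers z → IsConj g u
  hCz : Nat.card (Subgroup.centralizer ({z} : Set G)) = 108
  hCu : Nat.card (Subgroup.centralizer ({u} : Set G)) = 9
  hCuU : Subgroup.centralizer ({u} : Set G) ≤ U
  hzu : z * u = u * z
  ψ : U →* ℂˣ
  hψu : ψ ⟨u, huU⟩ ≠ 1
  hψz : ψ ⟨z, hzU⟩ = 1

end Cfsg.Agent.Lib.Helper39.U33
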