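import Cfsg.Agent.Lib.Helper39.U33.Aff

set_option autoImplicit false

namespace Cfsg.Agent.Lib.Helper39.U33

theorem aff_solvable (R : Type) [CommRing R] : Group.IsSolvable (Aff R) := by
  refine Group.isSolvable_of_ker_le_range (Aff.tHom (R := R)) (Aff.kHom (R := R)) ?_
  intro x hx
  rw [MonoidHom.mem_ker] at hx
  refine ⟨Multiplicative.ofAdd x.t, ?_⟩
  ext
  · rfl
  · have : x.k = 1 := hx
    rw [this]
    rfl

theorem aff_card (R : Type) [CommRing R] : Nat.card (Aff R) = Nat.card R * Nat.card Rˣ := by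
  rw [Nat.card_congr (Aff.equivProd (R := R)), Nat.card_prod]

instance : Finite R0 := by
  have : Fact (Nat.Prime 2) := ⟨Nat.prime_two⟩
  have : Finite (GaloisField 2 3) :=
    Nat.finite_of_card_ne_zero (by rw [GaloisField.card 2 3 (by norm_num)]; norm_num)
  have : NeZero 18 := ⟨by norm_num⟩
  exact Finite.instProd

theorem card_R0 : Nat.card R0 = 144 := by
  have : Fact (Nat.Prime 2) := ⟨Nat.prime_two⟩
  rw [Nat.card_prod, GaloisField.card 2 3 (by norm_num), Nat.card_zmod]
  norm_num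

theorem card_units_R0 : Nat.card R0ˣ = 42 := by
  have : Fact (Nat.Prime 2) := ⟨Nat.prime_two⟩
  have : Finite (GaloisField 2 3) :=
    Nat.finite_of_card_ne_zero (by rw [GaloisField.card 2 3 (by norm_num)]; norm_num)
  have : NeZero 18 := ⟨by norm_num⟩
  rw [Nat.card_congr (MulEquiv.prodUnits (M := GaloisField 2 3) (N := ZMod 18)).toEquiv,
    Nat.card_prod]
  have h1 : Nat.card (GaloisField 2 3)ˣ = 7 := by
    rw [Nat.card_units, GaloisField.card 2 3 (by norm_num)]
    norm_num
  have h2 : Nat.card (ZMod 18)ˣ = 6 := by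
    rw [Nat.card_eq_fintype_card, ZMod.card_units_eq_totient]
    decide
  rw [h1, h2]

theorem exists_primitive_R0 : ∃ ψ : AddChar R0 ℂ, ψ.IsPrimitive := by
  have : Fact (Nat.Prime 2) := ⟨Nat.prime_two⟩
  have : Finite (GaloisField 2 3) :=
    Nat.finite_of_card_ne_zero (by rw [GaloisField.card 2 3 (by norm_num)]; norm_num)
  have : NeZero 18 := ⟨by norm_num⟩
  set ψ1 : AddChar (GaloisField 2 3) ℂ :=
    AddChar.FiniteField.primitiveChar_to_Complex (GaloisField 2 3) with hψ1
  have hp1 : ψ1.IsPrimitive := AddChar.FiniteField.primitiveChar_to_Complex_isPrimitive _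
  set ψ2 : AddChar (ZMod 18) ℂ := ZMod.stdAddChar with hψ2
  have hp2 : ψ2.IsPrimitive := ZMod.isPrimitive_stdAddChar 18
  let ψ : AddChar R0 ℂ :=
    { toFun := fun x => ψ1 x.1 * ψ2 x.2
      map_zero_eq_one' := by
        show ψ1 0 * ψ2 0 = 1
        rw [AddChar.map_zero_eq_one, AddChar.map_zero_eq_one, one_mul]
      map_add_eq_mul' := by
        intro x y
        show ψ1 (x.1 + y.1) * ψ2 (x.2 + y.2) = ψ1 x.1 * ψ2 x.2 * (ψ1 y.1 * ψ2 y.2)
        rw [AddChar.map_add_eq_mul, AddChar.map_add_eq_mul]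
        ring }
  have hψ : ∀ x : R0, ψ x = ψ1 x.1 * ψ2 x.2 := fun _ => rfl
  refine ⟨ψ, ?_⟩
  intro c hc hcon
  have hall : ∀ x : R0, ψ (c * x) = 1 := by
    intro x
    have := DFunLike.congr_fun hcon x
    rwa [AddChar.mulShift_apply, AddChar.one_apply] at this
  by_cases hc1 : c.1 = 0
  · have hc2 : c.2 ≠ 0 := by
      intro h
      exact hc (Prod.ext hc1 h)
    apply hp2 hc2
    ext y
    have := hall (0, y)
    rw [hψ] at this
    simp only [Prod.fst_mul, Prod.snd_mul, mul_zero, AddChar.map_zero_eq_one, one_mul] at this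
    rw [AddChar.mulShift_apply, AddChar.one_apply, this]
  · apply hp1 hc1
    ext y
    have := hall (y, 0)
    rw [hψ] at this
    simp only [Prod.fst_mul, Prod.snd_mul, mul_zero, AddChar.map_zero_eq_one, mul_one] at this
    rw [AddChar.mulShift_apply, AddChar.one_apply, this]

end Cfsg.Agent.Lib.Helper39.U33
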