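import Cfsg.Agent.Lib.Helper39.U33.Aff
import Cfsg.Prelude.Def_DegreeGraph
import Cfsg.Agent.Lib.Helper15.CharTools
import Cfsg.Agent.Lib.Helper6.IndNorm

set_option autoImplicit false

namespace Cfsg.Agent.Lib.Helper39.U33

open Cfsg
open scoped ComplexConjugate

theorem D2_conj_t {R : Type} [CommRing R] (x y : Aff R) (hx : x.k = 1) :
    (y⁻¹ * x * y).t = ((y.k⁻¹ : Rˣ) : R) * x.t := by
  simp only [Aff.mul_t, Aff.mul_k, Aff.inv_t, Aff.inv_k, hx, mul_one]
  ring

theorem D2_conj_k {R : Type} [CommRing R] (x y : Aff R) (hx : x.k = 1) :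
    (y⁻¹ * x * y).k = 1 := by
  simp only [Aff.mul_k, Aff.inv_k, hx, mul_one, inv_mul_cancel]

/-- inducing a primitive additive character gives an irreducible character of degree `|Rˣ|` -/
theorem aff_degree (R : Type) [CommRing R] [Finite R] (ψ : AddChar R ℂ) (hψ : ψ.IsPrimitive) :
    Nat.card Rˣ ∈ charDegrees (Aff R) := by
  classical
  have : Finite (Aff R) := Finite.of_equiv _ (Aff.equivProd (R := R)).symm
  letI : Fintype (Aff R) := Fintype.ofFinite _
  letI : Fintype R := Fintype.ofFinite _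
  set N : Subgroup (Aff R) := (Aff.kHom (R := R)).ker with hN
  have hmem : ∀ x : Aff R, x ∈ N ↔ x.k = 1 := fun x => MonoidHom.mem_ker
  letI : Fintype N := Fintype.ofFinite _
  let φ : N →* ℂ :=
    { toFun := fun x => ψ x.1.t
      map_one' := by
        show ψ 0 = 1
        exact AddChar.map_zero_eq_one ψ
      map_mul' := by
        intro x y
        show ψ (x.1.t + x.1.k * y.1.t) = ψ x.1.t * ψ y.1.t
        rw [(hmem x.1).1 x.2, Units.val_one, one_mul, AddChar.map_add_eq_mul] }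
  set f : N →* ℂˣ := φ.toHomUnits with hf
  have hfv : ∀ x : N, ((f x : ℂˣ) : ℂ) = ψ x.1.t := fun x => rfl
  let e : N ≃ R :=
    { toFun := fun x => x.1.t
      invFun := fun t => ⟨⟨t, 1⟩, (hmem _).2 rfl⟩
      left_inv := fun x => by
        apply Subtype.ext
        ext
        · rfl
        · show ((1 : Rˣ) : R) = _
          rw [(hmem x.1).1 x.2]
      right_inv := fun t => rfl }
  have h0 : ∀ y : Aff R, y ∉ N → ∑ x : N, ((f x : ℂˣ) : ℂ) *
      conj (extendByZero N (fun x : N => ((f x : ℂˣ) : ℂ)) (y⁻¹ * x * y)) = 0 := by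
    intro y hy
    have hyk : y.k ≠ 1 := fun h => hy ((hmem y).2 h)
    have hc : (1 : R) - ((y.k⁻¹ : Rˣ) : R) ≠ 0 := by
      intro h
      apply hyk
      have h1 : ((y.k⁻¹ : Rˣ) : R) = ((1 : Rˣ) : R) := by
        rw [Units.val_one]
        exact (sub_eq_zero.1 h).symm
      have h2 : y.k⁻¹ = 1 := Units.ext h1
      exact inv_eq_one.1 h2
    have h1 : ∀ x : N, ((f x : ℂˣ) : ℂ) *
        conj (extendByZero N (fun x : N => ((f x : ℂˣ) : ℂ)) (y⁻¹ * x * y))
        = (AddChar.mulShift ψ (1 - ((y.k⁻¹ : Rˣ) : R))) (e x) := by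
      intro x
      have hx := (hmem x.1).1 x.2
      have hm : y⁻¹ * x.1 * y ∈ N := (hmem _).2 (D2_conj_k x.1 y hx)
      rw [Cfsg.Agent.Lib.Helper3.extendByZero_apply_mem N _ hm, hfv, hfv]
      show ψ x.1.t * conj (ψ (y⁻¹ * x.1 * y).t) = _
      rw [D2_conj_t x.1 y hx, ← AddChar.map_neg_eq_conj, ← AddChar.map_add_eq_mul,
        AddChar.mulShift_apply]
      congr 1
      show _ = (1 - ((y.k⁻¹ : Rˣ) : R)) * x.1.t
      ring
    rw [Finset.sum_congr rfl (fun x _ => h1 x), Equiv.sum_comp e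
      (fun t => (AddChar.mulShift ψ (1 - ((y.k⁻¹ : Rˣ) : R))) t)]
    exact AddChar.sum_eq_zero_of_ne_one (hψ hc)
  have hnorm := Cfsg.Agent.Lib.Helper6.IndNorm.classInner_indFun_self N f h0
  have hchar : IsCharacter (Aff R) (indFun N (fun x : N => ((f x : ℂˣ) : ℂ))) :=
    Cfsg.Agent.Lib.Helper15.char_indFun N
      (Cfsg.Agent.Lib.Helper15.irr_char (Cfsg.Agent.Lib.Helper3.isIrrCharacter_of_hom f))
  have hirr : IsIrrCharacter (Aff R) (indFun N (fun x : N => ((f x : ℂˣ) : ℂ))) :=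
    Cfsg.Agent.Lib.Helper15.isIrr_iff.2 ⟨hchar, hnorm⟩
  have hidx : N.index = Nat.card Rˣ := by
    rw [hN, Subgroup.index_ker]
    have hs : (Aff.kHom (R := R)).range = ⊤ := by
      rw [MonoidHom.range_eq_top]
      intro k
      exact ⟨⟨0, k⟩, rfl⟩
    rw [hs, Subgroup.card_top]
  have hone : indFun N (fun x : N => ((f x : ℂˣ) : ℂ)) 1 = ((Nat.card Rˣ : ℕ) : ℂ) := by
    rw [Cfsg.Agent.Lib.Helper15.indFun_one, hidx, map_one, Units.val_one, mul_one]
  refine ⟨⟨_, hirr⟩, ?_⟩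
  show charDegree (indFun N (fun x : N => ((f x : ℂˣ) : ℂ))) = _
  unfold charDegree
  rw [hone]
  simp

end Cfsg.Agent.Lib.Helper39.U33
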