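import Cfsg.Prelude.Def_DegreeGraph
import Cfsg.Agent.Lib.Helper15.CharTools
import Cfsg.Agent.Lib.Helper80.CoreDvd

set_option autoImplicit false

namespace Cfsg.Agent.Lib.Helper39.U33

open Cfsg

theorem prime_dvd_6048 {p : ℕ} (hp : p.Prime) (h : p ∣ 6048) : p = 2 ∨ p = 3 ∨ p = 7 := by
  have e : (6048 : ℕ) = 2 ^ 5 * 3 ^ 3 * 7 := by norm_num
  rw [e] at h
  rcases (Nat.Prime.dvd_mul hp).mp h with h | h
  · rcases (Nat.Prime.dvd_mul hp).mp h with h | h
    · left
      exact (Nat.prime_dvd_prime_iff_eq hp (by norm_num)).mp (hp.dvd_of_dvd_pow h)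
    · right; left
      exact (Nat.prime_dvd_prime_iff_eq hp (by norm_num)).mp (hp.dvd_of_dvd_pow h)
  · right; right
    exact (Nat.prime_dvd_prime_iff_eq hp (by norm_num)).mp h

/-- the degree graph of a group of order 6048 with degrees divisible by 6, 14, 21 -/
theorem graph_of_degrees {X : Type*} [Group X] [Finite X] (hX : Nat.card X = 6048)
    (h6 : ∃ d ∈ charDegrees X, 6 ∣ d) (h14 : ∃ d ∈ charDegrees X, 14 ∣ d)
    (h21 : ∃ d ∈ charDegrees X, 21 ∣ d) :
    degreePrimes X = {2, 3, 7} ∧ ∀ p q : ℕ, (degreeGraph X).Adj p q ↔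
      (p ≠ q ∧ p ∈ ({2, 3, 7} : Set ℕ) ∧ q ∈ ({2, 3, 7} : Set ℕ)) := by
  have hdvd : ∀ d ∈ charDegrees X, d ∣ 6048 := by
    rintro d ⟨χ, rfl⟩
    rw [← hX]
    exact Helper80.charDegree_dvd_card χ
  obtain ⟨d6, hd6, h6⟩ := h6
  obtain ⟨d14, hd14, h14⟩ := h14
  obtain ⟨d21, hd21, h21⟩ := h21
  constructor
  · ext p
    simp only [degreePrimes, Set.mem_ofPred_eq, Set.mem_insert_iff, Set.mem_singleton_iff]
    constructor
    · rintro ⟨hp, d, hd, hpd⟩
      exact prime_dvd_6048 hp (hpd.trans (hdvd d hd))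
    · rintro (rfl | rfl | rfl)
      · exact ⟨by norm_num, d6, hd6, (by norm_num : 2 ∣ 6).trans h6⟩
      · exact ⟨by norm_num, d6, hd6, (by norm_num : 3 ∣ 6).trans h6⟩
      · exact ⟨by norm_num, d14, hd14, (by norm_num : 7 ∣ 14).trans h14⟩
  · intro p q
    simp only [degreeGraph, Set.mem_insert_iff, Set.mem_singleton_iff]
    constructor
    · rintro ⟨hne, hp, hq, d, hd, hpq⟩
      exact ⟨hne, prime_dvd_6048 hp ((Dvd.intro _ rfl).trans (hpq.trans (hdvd d hd))),
        prime_dvd_6048 hq ((Dvd.intro_left _ rfl).trans (hpq.trans (hdvd d hd)))⟩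
    · rintro ⟨hne, (rfl | rfl | rfl), (rfl | rfl | rfl)⟩
      · exact absurd rfl hne
      · exact ⟨hne, by norm_num, by norm_num, d6, hd6, by simpa using h6⟩
      · exact ⟨hne, by norm_num, by norm_num, d14, hd14, by simpa using h14⟩
      · exact ⟨hne, by norm_num, by norm_num, d6, hd6, by simpa using h6⟩
      · exact absurd rfl hne
      · exact ⟨hne, by norm_num, by norm_num, d21, hd21, by simpa using h21⟩
      · exact ⟨hne, by norm_num, by norm_num, d14, hd14, by simpa using h14⟩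
      · exact ⟨hne, by norm_num, by norm_num, d21, hd21, by simpa using h21⟩
      · exact absurd rfl hne

end Cfsg.Agent.Lib.Helper39.U33
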