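import Cfsg.Agent.Lib.Helper39.U33.Base

set_option autoImplicit false

namespace Cfsg.Agent.Lib.Helper39.U33

open Matrix Cfsg.Agent.Lib.Helper13 Cfsg.Agent.Lib.Helper5 Cfsg.Agent.Lib.Helper39.SUDeg
open Cfsg.Agent.Lib.Helper54

/-- the model data -/
def M1a_model : HModel hK J3 3 where
  e := Equiv.refl _
  C := C3
  hJ := by decide +kernel
  hJh := by
    rw [cT_eq]
    decide +kernel
  hC := by
    rw [cT_eq]
    decide +kernel

theorem M1a_cT_of_su (s : Cfsg.SU 3 K9 3) : cT hK s.1.1 * s.1.1 = 1 := by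
  have h := (preserves_hermForm_iff hK s.1.1).1 s.2
  have h2 : (s.1.1)ᵀ * (cT hK s.1.1)ᵀ = 1 := h
  have h3 := congrArg Matrix.transpose h2
  rwa [Matrix.transpose_mul, Matrix.transpose_transpose, Matrix.transpose_transpose,
    Matrix.transpose_one] at h3

/-- the antidiagonal model is the standard special unitary group -/
theorem iso_SU : Nonempty (GJ ≃* Cfsg.SU 3 K9 3) := by
  set 𝔐 := M1a_model with h𝔐
  have hCdef : 𝔐.C = C3 := rfl
  have hL := 𝔐.inv_left
  have hR := 𝔐.inv_right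
  refine ⟨MulEquiv.ofBijective 𝔐.emb ⟨?_, ?_⟩⟩
  · intro a b hab
    apply GJ_ext
    apply 𝔐.mat_injective
    rw [← HModel.emb_val, ← HModel.emb_val, hab]
  · intro s
    set M := s.1.1 with hM
    have hMM : cT hK M * M = 1 := M1a_cT_of_su s
    set B := J3 * cT hK 𝔐.C with hB
    set N := B * M * 𝔐.C with hN
    have hdet : N.det = 1 := by
      rw [hN, Matrix.det_mul, Matrix.det_mul, mul_right_comm, ← Matrix.det_mul, hL, Matrix.det_one,
        one_mul]
      exact s.1.2
    have hcB : cT hK B = 𝔐.C * J3 := by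
      rw [hB, cT_mul, cT_cT, 𝔐.hJh]
    have hform : cT hK N * J3 * N = J3 := by
      calc cT hK N * J3 * N
          = cT hK 𝔐.C * cT hK M * (𝔐.C * (J3 * J3) * B) * M * 𝔐.C := by
            rw [hN, cT_mul, cT_mul, hcB]
            simp only [Matrix.mul_assoc]
        _ = cT hK 𝔐.C * (cT hK M * M) * 𝔐.C := by
            rw [𝔐.hJ, Matrix.mul_one, hR]
            simp only [Matrix.mul_assoc, Matrix.one_mul]
        _ = J3 := by rw [hMM, Matrix.mul_one, 𝔐.hC]
    refine ⟨⟨⟨N, hdet⟩, hform⟩, ?_⟩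
    apply Subtype.ext
    apply Subtype.ext
    show 𝔐.mat N = M
    have h1 : 𝔐.mat N = 𝔐.C * N * B := by
      ext i j
      rfl
    rw [h1, hN]
    calc 𝔐.C * (B * M * 𝔐.C) * B = (𝔐.C * B) * M * (𝔐.C * B) := by
          simp only [Matrix.mul_assoc]
      _ = M := by rw [hR, Matrix.one_mul, Matrix.mul_one]

end Cfsg.Agent.Lib.Helper39.U33
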