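import Cfsg.Agent.Lib.Helper54.K9
import Cfsg.Agent.Lib.Helper5.SUSimple
import Cfsg.Agent.Lib.Helper5.SUCenter
import Cfsg.Agent.S0280

set_option autoImplicit false

namespace Cfsg.Agent.Lib.Helper39.U33

open Cfsg.Agent.Lib.Helper54

theorem iso_PSU : Nonempty (Cfsg.SU 3 K9 3 ≃* Cfsg.PSU 3 K9 3) := by
  have h1 : Nat.card (Subgroup.center (Cfsg.SU 3 K9 3)) = 1 := by
    rw [Cfsg.Agent.Lib.Helper5.card_center_SU K9.card_eq' (by norm_num)]
    decide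
  have h2 : Subgroup.center (Cfsg.SU 3 K9 3) = ⊥ := Subgroup.card_eq_one.1 h1
  exact ⟨(QuotientGroup.quotientBot (G := Cfsg.SU 3 K9 3)).symm.trans
    (QuotientGroup.quotientMulEquivOfEq h2.symm)⟩

theorem card_PSU : Nat.card (Cfsg.PSU 3 K9 3) = 6048 := by
  have h := Cfsg.Agent.S0280.result K9.card_eq' 3 (by norm_num)
  have e1 : Nat.gcd 3 (3 + 1) = 1 := by decide
  have e2 : (3 : ℕ) ^ (3 * (3 - 1) / 2) * ∏ i ∈ Finset.range 3,
      (if Even i then 3 ^ (i + 1) + 1 else 3 ^ (i + 1) - 1) = 24192 := by decide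
  rw [e1, e2] at h
  omega

theorem simple_PSU : IsSimpleGroup (Cfsg.PSU 3 K9 3) :=
  Cfsg.Agent.Lib.Helper5.psu_isSimpleGroup K9.card_eq' (by norm_num) (by norm_num)

end Cfsg.Agent.Lib.Helper39.U33
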