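import Cfsg.Agent.Lib.Helper39.U33.Base

set_option autoImplicit false

namespace Cfsg.Agent.Lib.Helper39.U33

open Matrix Cfsg.Agent.Lib.Helper54

theorem M2_form_apply (M : Matrix (Fin 3) (Fin 3) K9) (i j : Fin 3) :
    (cj M * J3 * M) i j = M 2 i ^ 3 * M 0 j + M 1 i ^ 3 * M 1 j + M 0 i ^ 3 * M 2 j := by
  simp only [Matrix.mul_apply, Fin.sum_univ_three, cj_apply, J3]
  simp

theorem M2_fin : ∀ a b s c : K9, (!![1, a, b; 0, s, c; 0, 0, 1] : Matrix (Fin 3) (Fin 3) K9).det = 1 →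
    cj !![1, a, b; 0, s, c; 0, 0, 1] * J3 * !![1, a, b; 0, s, c; 0, 0, 1] = J3 →
    s = 1 ∧ c = - a ^ 3 ∧ b + b ^ 3 + a ^ 4 = 0 := by
  decide +kernel

theorem M2_mulVec : ∀ α β : K9, uM α β *ᵥ (Pi.single 0 1) = Pi.single 0 1 := by
  decide +kernel

theorem mem_UU_iff (g : GJ) :
    g ∈ UU ↔ ∃ α β : K9, β + β ^ 3 + α ^ 4 = 0 ∧ g.1.1 = uM α β := by
  constructor
  · intro hg
    rw [mem_UU] at hg
    obtain ⟨M, hM⟩ : ∃ M, M = g.1.1 := ⟨_, rfl⟩
    have hdet := GJ_det g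
    have hform := GJ_form g
    rw [← hM] at hg hdet hform ⊢
    have hcol : ∀ i, M i 0 = (Pi.single 0 1 : Fin 3 → K9) i := by
      intro i
      have := congrFun hg i
      simpa [Matrix.mulVec, dotProduct, Fin.sum_univ_three, Pi.single_apply] using this
    have h00 : M 0 0 = 1 := by simpa using hcol 0
    have h10 : M 1 0 = 0 := by simpa using hcol 1
    have h20 : M 2 0 = 0 := by simpa using hcol 2
    have h21 : M 2 1 = 0 := by
      have := congrFun (congrFun hform 0) 1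
      rw [M2_form_apply, h00, h10, h20] at this
      simpa [J3] using this
    have h22 : M 2 2 = 1 := by
      have := congrFun (congrFun hform 0) 2
      rw [M2_form_apply, h00, h10, h20] at this
      simpa [J3] using this
    have hMe : M = !![1, M 0 1, M 0 2; 0, M 1 1, M 1 2; 0, 0, 1] := by
      ext i j
      fin_cases i <;> fin_cases j <;> simp [h00, h10, h20, h21, h22]
    rw [hMe] at hdet hform
    obtain ⟨h1, h2, h3⟩ := M2_fin _ _ _ _ hdet hform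
    refine ⟨M 0 1, M 0 2, h3, ?_⟩
    rw [hMe, uM]
    simp only [h1, h2]
    ext i j
    fin_cases i <;> fin_cases j <;> simp
  · rintro ⟨α, β, -, h⟩
    rw [mem_UU, h]
    exact M2_mulVec α β

theorem M2_card : Fintype.card {p : K9 × K9 // p.2 + p.2 ^ 3 + p.1 ^ 4 = 0} = 27 := by
  decide +kernel

theorem card_UU : Nat.card UU = 27 := by
  rw [← M2_card, ← Nat.card_eq_fintype_card]
  symm
  refine Nat.card_congr (Equiv.ofBijective
    (fun p : {p : K9 × K9 // p.2 + p.2 ^ 3 + p.1 ^ 4 = 0} =>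
      (⟨uG p.1.1 p.1.2 p.2, (mem_UU_iff _).2 ⟨p.1.1, p.1.2, p.2, rfl⟩⟩ : UU)) ⟨?_, ?_⟩)
  · rintro ⟨⟨a, b⟩, h⟩ ⟨⟨a', b'⟩, h'⟩ e
    have e1 : uM a b = uM a' b' := congrArg (fun x : UU => x.1.1.1) e
    have e2 := congrFun (congrFun e1 0) 1
    have e3 := congrFun (congrFun e1 0) 2
    simp [uM] at e2 e3
    subst e2; subst e3; rfl
  · rintro ⟨g, hg⟩
    obtain ⟨α, β, h, e⟩ := (mem_UU_iff g).1 hg
    exact ⟨⟨(α, β), h⟩, Subtype.ext (GJ_ext e.symm)⟩

end Cfsg.Agent.Lib.Helper39.U33
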