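import Cfsg.Agent.Lib.Helper39.U33.M2

set_option autoImplicit false

namespace Cfsg.Agent.Lib.Helper39.U33

open Matrix Cfsg.Agent.Lib.Helper54

theorem zz_mem : zz ∈ UU := by
  rw [mem_UU_iff]
  exact ⟨0, sI, by decide +kernel, rfl⟩

theorem uu_mem : uu ∈ UU := by
  rw [mem_UU_iff]
  exact ⟨1, 1, by decide +kernel, rfl⟩

theorem zz_ne_one : zz ≠ 1 := by
  intro h
  have h1 : zz.1.1 = (1 : GJ).1.1 := by rw [h]
  have h2 : uM 0 sI = 1 := h1
  revert h2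
  decide +kernel

theorem zz_pow : zz ^ 3 = 1 := by
  apply GJ_ext
  have h1 : (zz ^ 3).1.1 = uM 0 sI * uM 0 sI * uM 0 sI := by
    rw [pow_succ, pow_succ, pow_one]
    rfl
  rw [h1, GJ_one_val]
  decide +kernel

theorem M3_inv_val : (zz⁻¹).1.1 = uM 0 (-sI) := by
  have h0 : zz * uG 0 (-sI) (by decide +kernel) = 1 := by
    apply GJ_ext
    rw [GJ_mul_val, GJ_one_val]
    show uM 0 sI * uM 0 (-sI) = 1
    decide +kernel
  rw [← eq_inv_of_mul_eq_one_right h0]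
  rfl

theorem zz_conj : IsConj zz⁻¹ zz := by
  rw [isConj_iff]
  refine ⟨dG e0 (by decide +kernel), ?_⟩
  rw [mul_inv_eq_iff_eq_mul]
  apply GJ_ext
  rw [GJ_mul_val, GJ_mul_val, M3_inv_val]
  show dM e0 * uM 0 (-sI) = uM 0 sI * dM e0
  decide +kernel

theorem zz_uu : zz * uu = uu * zz := by
  apply GJ_ext
  rw [GJ_mul_val, GJ_mul_val]
  show uM 0 sI * uM 1 1 = uM 1 1 * uM 0 sI
  decide +kernel

theorem M3_zero : ∀ β : K9, β + β ^ 3 + (0 : K9) ^ 4 = 0 → β = 0 ∨ β = sI ∨ β = -sI := by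
  decide +kernel

theorem M3_conj : ∀ α β : K9, β + β ^ 3 + α ^ 4 = 0 → α ≠ 0 →
    ∃ t γ δ : K9, t ≠ 0 ∧ δ + δ ^ 3 + γ ^ 4 = 0 ∧
      (dM t * uM γ δ) * uM α β = uM 1 1 * (dM t * uM γ δ) := by
  decide +kernel

theorem conj_uu : ∀ g ∈ UU, g ∉ Subgroup.zpowers zz → IsConj g uu := by
  intro g hg hgz
  obtain ⟨α, β, hαβ, hgv⟩ := (mem_UU_iff g).1 hg
  by_cases hα : α = 0
  · subst hα
    exfalso
    apply hgz
    rcases M3_zero β hαβ with rfl | rfl | rfl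
    · have : g = 1 := by
        apply GJ_ext
        rw [hgv, GJ_one_val]
        decide +kernel
      rw [this]
      exact one_mem _
    · have : g = zz := GJ_ext hgv
      rw [this]
      exact Subgroup.mem_zpowers zz
    · have : g = zz⁻¹ := by
        apply GJ_ext
        rw [hgv, M3_inv_val]
      rw [this]
      exact inv_mem (Subgroup.mem_zpowers zz)
  · obtain ⟨t, γ, δ, ht, hγδ, hc⟩ := M3_conj α β hαβ hα
    rw [isConj_iff]
    refine ⟨dG t ht * uG γ δ hγδ, ?_⟩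
    rw [mul_inv_eq_iff_eq_mul]
    apply GJ_ext
    rw [GJ_mul_val, GJ_mul_val, GJ_mul_val, hgv]
    exact hc

end Cfsg.Agent.Lib.Helper39.U33
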