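import Cfsg.Agent.Lib.Helper39.U33.Base

set_option autoImplicit false

namespace Cfsg.Agent.Lib.Helper39.U33

open Matrix Cfsg.Agent.Lib.Helper54

theorem M4_form_apply (M : Matrix (Fin 3) (Fin 3) K9) (i j : Fin 3) :
    (cj M * J3 * M) i j = M 2 i ^ 3 * M 0 j + M 1 i ^ 3 * M 1 j + M 0 i ^ 3 * M 2 j := by
  simp only [Matrix.mul_apply, Fin.sum_univ_three, cj_apply, J3]
  simp

theorem M4_prod (t α β : K9) :
    dM t * uM α β = !![t, t * α, t * β; 0, t ^ 2, t ^ 2 * -α ^ 3; 0, 0, t ^ 5] := by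
  ext i j
  fin_cases i <;> fin_cases j <;> simp [dM, uM, Matrix.mul_apply, Fin.sum_univ_three]

theorem M4_fin : ∀ t s : K9, t * s * t = 1 → t ^ 3 * t = 1 → ∀ a c : K9, s ^ 3 * c + a ^ 3 * t = 0 →
    ∀ b : K9, t ^ 3 * b + c ^ 3 * c + b ^ 3 * t = 0 →
    t ^ 4 = 1 ∧ a = t * (a * t ^ 3) ∧ b = t * (b * t ^ 3) ∧ s = t ^ 2 ∧
      c = t ^ 2 * -(a * t ^ 3) ^ 3 ∧ t = t ^ 5 ∧
      (b * t ^ 3) + (b * t ^ 3) ^ 3 + (a * t ^ 3) ^ 4 = 0 := by
  decide +kernel

theorem M4_sI : ∀ x y z : K9, x + sI * y = x + z * sI → y = z := by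
  decide +kernel

theorem M4_comm : ∀ t α β : K9, t ^ 4 = 1 →
    uM 0 sI * (dM t * uM α β) = (dM t * uM α β) * uM 0 sI := by
  decide +kernel

theorem M4_ne : ∀ t : K9, t ^ 4 = 1 → t ≠ 0 := by
  decide +kernel

theorem mem_centralizer_zz_iff (g : GJ) :
    g ∈ Subgroup.centralizer ({zz} : Set GJ) ↔
      ∃ t α β : K9, t ^ 4 = 1 ∧ β + β ^ 3 + α ^ 4 = 0 ∧ g.1.1 = dM t * uM α β := by
  rw [Subgroup.mem_centralizer_singleton_iff]
  constructor
  · intro hg
    obtain ⟨M, hM⟩ : ∃ M, M = g.1.1 := ⟨_, rfl⟩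
    have hdet := GJ_det g
    have hform := GJ_form g
    have hc : M * uM 0 sI = uM 0 sI * M := by
      rw [hM]
      exact congrArg (fun x : GJ => x.1.1) hg
    rw [← hM] at hdet hform ⊢
    have hL : ∀ i j, (M * uM 0 sI) i j = M i j + (if j = 2 then M i 0 * sI else 0) := by
      intro i j
      fin_cases j <;> simp [uM, Matrix.mul_apply, Fin.sum_univ_three] <;> ring
    have hR : ∀ i j, (uM 0 sI * M) i j = M i j + (if i = 0 then sI * M 2 j else 0) := by
      intro i j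
      fin_cases i <;> simp [uM, Matrix.mul_apply, Fin.sum_univ_three]
    have hE : ∀ i j, M i j + (if i = 0 then sI * M 2 j else 0)
        = M i j + (if j = 2 then M i 0 * sI else 0) := by
      intro i j
      rw [← hL, ← hR, hc]
    have h20 : M 2 0 = 0 := by
      have := hE 0 0
      simp only [if_true] at this
      apply M4_sI (M 0 0) (M 2 0) 0
      rw [this]; simp
    have h21 : M 2 1 = 0 := by
      have := hE 0 1
      simp only [if_true] at this
      apply M4_sI (M 0 1) (M 2 1) 0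
      rw [this]; simp
    have h22 : M 2 2 = M 0 0 := by
      have := hE 0 2
      simp only [if_true] at this
      exact M4_sI (M 0 2) (M 2 2) (M 0 0) this
    have h10 : M 1 0 = 0 := by
      have := hE 1 2
      simp only [if_true] at this
      symm
      apply M4_sI (M 1 2) 0 (M 1 0)
      rw [← this]; simp
    have hMe : M = !![M 0 0, M 0 1, M 0 2; 0, M 1 1, M 1 2; 0, 0, M 0 0] := by
      ext i j
      fin_cases i <;> fin_cases j <;> simp [h10, h20, h21, h22]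
    have d1 : M 0 0 * M 1 1 * M 0 0 = 1 := by
      rw [Matrix.det_fin_three, h10, h20, h21, h22] at hdet
      simpa using hdet
    have f02 : M 0 0 ^ 3 * M 0 0 = 1 := by
      have := congrFun (congrFun hform 0) 2
      rw [M4_form_apply, h10, h20, h22] at this
      simpa [J3] using this
    have f12 : M 1 1 ^ 3 * M 1 2 + M 0 1 ^ 3 * M 0 0 = 0 := by
      have := congrFun (congrFun hform 1) 2
      rw [M4_form_apply, h21, h22] at this
      simpa [J3] using this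
    have f22 : M 0 0 ^ 3 * M 0 2 + M 1 2 ^ 3 * M 1 2 + M 0 2 ^ 3 * M 0 0 = 0 := by
      have := congrFun (congrFun hform 2) 2
      rw [M4_form_apply, h22] at this
      simpa [J3] using this
    obtain ⟨k1, k2, k3, k4, k5, k6, k7⟩ := M4_fin _ _ d1 f02 _ _ f12 _ f22
    refine ⟨M 0 0, M 0 1 * M 0 0 ^ 3, M 0 2 * M 0 0 ^ 3, k1, k7, ?_⟩
    rw [M4_prod, ← k5, ← k2, ← k3, ← k4, ← k6]
    exact hMe
  · rintro ⟨t, α, β, ht, -, h⟩
    apply GJ_ext
    rw [GJ_mul_val, GJ_mul_val, h]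
    exact (M4_comm t α β ht).symm

theorem M4_card :
    Fintype.card {p : K9 × K9 × K9 // p.1 ^ 4 = 1 ∧ p.2.2 + p.2.2 ^ 3 + p.2.1 ^ 4 = 0} = 108 := by
  decide +kernel

theorem card_centralizer_zz : Nat.card (Subgroup.centralizer ({zz} : Set GJ)) = 108 := by
  rw [← M4_card, ← Nat.card_eq_fintype_card]
  symm
  refine Nat.card_congr (Equiv.ofBijective
    (fun p : {p : K9 × K9 × K9 // p.1 ^ 4 = 1 ∧ p.2.2 + p.2.2 ^ 3 + p.2.1 ^ 4 = 0} =>
      (⟨dG p.1.1 (M4_ne _ p.2.1) * uG p.1.2.1 p.1.2.2 p.2.2,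
        (mem_centralizer_zz_iff _).2 ⟨p.1.1, p.1.2.1, p.1.2.2, p.2.1, p.2.2, rfl⟩⟩ :
        Subgroup.centralizer ({zz} : Set GJ))) ⟨?_, ?_⟩)
  · rintro ⟨⟨t, a, b⟩, h1, h2⟩ ⟨⟨t', a', b'⟩, h1', h2'⟩ e
    have e1 : dM t * uM a b = dM t' * uM a' b' :=
      congrArg (fun x : Subgroup.centralizer ({zz} : Set GJ) => x.1.1.1) e
    rw [M4_prod, M4_prod] at e1
    have e2 := congrFun (congrFun e1 0) 0
    have e3 := congrFun (congrFun e1 0) 1
    have e4 := congrFun (congrFun e1 0) 2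
    simp at e2 e3 e4
    subst e2
    have ht : t ≠ 0 := M4_ne t h1
    have ea : a = a' := mul_left_cancel₀ ht e3
    have eb : b = b' := mul_left_cancel₀ ht e4
    subst ea; subst eb; rfl
  · rintro ⟨g, hg⟩
    obtain ⟨t, α, β, h1, h2, e⟩ := (mem_centralizer_zz_iff g).1 hg
    exact ⟨⟨(t, α, β), h1, h2⟩, Subtype.ext (GJ_ext e.symm)⟩

end Cfsg.Agent.Lib.Helper39.U33
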