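import Cfsg.Agent.Lib.Helper39.U33.Base

set_option autoImplicit false

namespace Cfsg.Agent.Lib.Helper39.U33

open Matrix Cfsg.Agent.Lib.Helper54

theorem M5_form_apply (M : Matrix (Fin 3) (Fin 3) K9) (i j : Fin 3) :
    (cj M * J3 * M) i j = M 2 i ^ 3 * M 0 j + M 1 i ^ 3 * M 1 j + M 0 i ^ 3 * M 2 j := by
  simp only [Matrix.mul_apply, Fin.sum_univ_three, cj_apply, J3]
  simp

theorem M5_fin : ∀ t : K9, t * t * t = 1 → ∀ a : K9, t ^ 3 * -a + a ^ 3 * t = 0 →
    ∀ b : K9, t ^ 3 * b + (-a) ^ 3 * -a + b ^ 3 * t = 0 →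
    t = 1 ∧ a ^ 3 = a ∧ b + b ^ 3 + a ^ 4 = 0 := by
  decide +kernel

theorem M5_comm : ∀ α β : K9, α ^ 3 = α →
    uM 1 1 * uM α β = uM α β * uM 1 1 := by
  decide +kernel

theorem M5_mulVec : ∀ α β : K9, uM α β *ᵥ (Pi.single 0 1) = Pi.single 0 1 := by
  decide +kernel

theorem mem_centralizer_uu_iff (g : GJ) :
    g ∈ Subgroup.centralizer ({uu} : Set GJ) ↔
      ∃ α β : K9, α ^ 3 = α ∧ β + β ^ 3 + α ^ 4 = 0 ∧ g.1.1 = uM α β := by
  rw [Subgroup.mem_centralizer_singleton_iff]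
  constructor
  · intro hg
    obtain ⟨M, hM⟩ : ∃ M, M = g.1.1 := ⟨_, rfl⟩
    have hdet := GJ_det g
    have hform := GJ_form g
    have hc : M * uM 1 1 = uM 1 1 * M := by
      rw [hM]
      exact congrArg (fun x : GJ => x.1.1) hg
    rw [← hM] at hdet hform ⊢
    have hL0 : ∀ i, (M * uM 1 1) i 0 = M i 0 := by
      intro i; simp [uM, Matrix.mul_apply, Fin.sum_univ_three]
    have hL1 : ∀ i, (M * uM 1 1) i 1 = M i 0 + M i 1 := by
      intro i; simp [uM, Matrix.mul_apply, Fin.sum_univ_three]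
    have hL2 : ∀ i, (M * uM 1 1) i 2 = M i 0 - M i 1 + M i 2 := by
      intro i; simp [uM, Matrix.mul_apply, Fin.sum_univ_three]; ring
    have hR0 : ∀ j, (uM 1 1 * M) 0 j = M 0 j + M 1 j + M 2 j := by
      intro j; simp [uM, Matrix.mul_apply, Fin.sum_univ_three]
    have hR1 : ∀ j, (uM 1 1 * M) 1 j = M 1 j - M 2 j := by
      intro j; simp [uM, Matrix.mul_apply, Fin.sum_univ_three]; ring
    have hR2 : ∀ j, (uM 1 1 * M) 2 j = M 2 j := by
      intro j; simp [uM, Matrix.mul_apply, Fin.sum_univ_three]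
    have h20 : M 2 0 = 0 := by
      have := hL1 2
      rw [hc, hR2] at this
      linear_combination -this
    have h21 : M 2 1 = 0 := by
      have := hL2 2
      rw [hc, hR2] at this
      linear_combination this + h20
    have h10 : M 1 0 = 0 := by
      have := hL1 1
      rw [hc, hR1] at this
      linear_combination -this - h21
    have h11 : M 1 1 = M 2 2 := by
      have := hL2 1
      rw [hc, hR1] at this
      linear_combination this + h10
    have h00 : M 0 0 = M 2 2 := by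
      have := hL1 0
      rw [hc, hR0] at this
      linear_combination -this + h11 + h21
    have h12 : M 1 2 = - M 0 1 := by
      have := hL2 0
      rw [hc, hR0] at this
      linear_combination this + h00
    have hMe : M = !![M 2 2, M 0 1, M 0 2; 0, M 2 2, - M 0 1; 0, 0, M 2 2] := by
      ext i j
      fin_cases i <;> fin_cases j <;> simp [h00, h10, h20, h21, h11, h12]
    have d1 : M 2 2 * M 2 2 * M 2 2 = 1 := by
      rw [Matrix.det_fin_three, h10, h20, h21, h00, h11] at hdet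
      simpa using hdet
    have f12 : M 2 2 ^ 3 * - M 0 1 + M 0 1 ^ 3 * M 2 2 = 0 := by
      have := congrFun (congrFun hform 1) 2
      rw [M5_form_apply, h21, h11, h12] at this
      simpa [J3] using this
    have f22 : M 2 2 ^ 3 * M 0 2 + (- M 0 1) ^ 3 * - M 0 1 + M 0 2 ^ 3 * M 2 2 = 0 := by
      have := congrFun (congrFun hform 2) 2
      rw [M5_form_apply, h12] at this
      simpa [J3] using this
    obtain ⟨k1, k2, k3⟩ := M5_fin _ d1 _ f12 _ f22
    refine ⟨M 0 1, M 0 2, k2, k3, ?_⟩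
    rw [uM, k2]
    rw [k1] at hMe
    exact hMe
  · rintro ⟨α, β, ha, -, h⟩
    apply GJ_ext
    rw [GJ_mul_val, GJ_mul_val, h]
    exact (M5_comm α β ha).symm

theorem M5_card :
    Fintype.card {p : K9 × K9 // p.1 ^ 3 = p.1 ∧ p.2 + p.2 ^ 3 + p.1 ^ 4 = 0} = 9 := by
  decide +kernel

theorem card_centralizer_uu : Nat.card (Subgroup.centralizer ({uu} : Set GJ)) = 9 := by
  rw [← M5_card, ← Nat.card_eq_fintype_card]
  symm
  refine Nat.card_congr (Equiv.ofBijective
    (fun p : {p : K9 × K9 // p.1 ^ 3 = p.1 ∧ p.2 + p.2 ^ 3 + p.1 ^ 4 = 0} =>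
      (⟨uG p.1.1 p.1.2 p.2.2,
        (mem_centralizer_uu_iff _).2 ⟨p.1.1, p.1.2, p.2.1, p.2.2, rfl⟩⟩ :
        Subgroup.centralizer ({uu} : Set GJ))) ⟨?_, ?_⟩)
  · rintro ⟨⟨a, b⟩, h1, h2⟩ ⟨⟨a', b'⟩, h1', h2'⟩ e
    have e1 : uM a b = uM a' b' :=
      congrArg (fun x : Subgroup.centralizer ({uu} : Set GJ) => x.1.1.1) e
    have e2 := congrFun (congrFun e1 0) 1
    have e3 := congrFun (congrFun e1 0) 2
    simp [uM] at e2 e3
    subst e2; subst e3; rfl
  · rintro ⟨g, hg⟩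
    obtain ⟨α, β, h1, h2, e⟩ := (mem_centralizer_uu_iff g).1 hg
    exact ⟨⟨(α, β), h1, h2⟩, Subtype.ext (GJ_ext e.symm)⟩

theorem centralizer_uu_le : Subgroup.centralizer ({uu} : Set GJ) ≤ UU := by
  intro g hg
  obtain ⟨α, β, -, -, e⟩ := (mem_centralizer_uu_iff g).1 hg
  rw [mem_UU, e]
  exact M5_mulVec α β

end Cfsg.Agent.Lib.Helper39.U33
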