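import Cfsg.Agent.Lib.Helper39.U33.M3
import Cfsg.Agent.Lib.Helper39.SU.Fourier

set_option autoImplicit false

namespace Cfsg.Agent.Lib.Helper39.U33

open Matrix Cfsg.Agent.Lib.Helper54

theorem M6_mul : ∀ α β α' β' : K9, (uM α β * uM α' β') 0 1 = α + α' := by
  decide +kernel

theorem M6_entry (α β : K9) : (uM α β) 0 1 = α := rfl

theorem exists_psi : ∃ ψ : UU →* ℂˣ, ψ ⟨uu, uu_mem⟩ ≠ 1 ∧ ψ ⟨zz, zz_mem⟩ = 1 := by
  obtain ⟨ψ0, hψ0⟩ := Cfsg.Agent.Lib.Helper39.SUDeg.exists_addChar_one_ne (F := K9)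
  let φ : UU →* ℂ :=
    { toFun := fun g => ψ0 (g.1.1.1 0 1)
      map_one' := by
        show ψ0 ((1 : Matrix (Fin 3) (Fin 3) K9) 0 1) = 1
        rw [Matrix.one_apply_ne (by decide), AddChar.map_zero_eq_one]
      map_mul' := by
        intro g h
        obtain ⟨α, β, -, hg⟩ := (mem_UU_iff g.1).1 g.2
        obtain ⟨α', β', -, hh⟩ := (mem_UU_iff h.1).1 h.2
        show ψ0 ((g.1.1.1 * h.1.1.1) 0 1) = ψ0 (g.1.1.1 0 1) * ψ0 (h.1.1.1 0 1)
        rw [hg, hh, M6_mul, M6_entry, M6_entry, AddChar.map_add_eq_mul] }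
  refine ⟨φ.toHomUnits, ?_, ?_⟩
  · intro h
    have h1 := congrArg Units.val h
    rw [MonoidHom.coe_toHomUnits] at h1
    exact hψ0 h1
  · apply Units.ext
    rw [MonoidHom.coe_toHomUnits]
    show ψ0 ((uM 0 sI) 0 1) = 1
    rw [M6_entry, AddChar.map_zero_eq_one]

end Cfsg.Agent.Lib.Helper39.U33
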