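import Mathlib

/-!
# A verified exhaustive search for the arithmetic core
-/

set_option autoImplicit false

namespace Cfsg.Agent.Lib.Helper39.U33

/-- six budgets -/
abbrev V6 : Type := ℕ × ℕ × ℕ × ℕ × ℕ × ℕ

/-- the vector `((a-b)², (c-3b)², b², ab, ac, bc)` of a type `(a, b, c)` -/
def vec (t : ℕ × ℕ × ℕ) : V6 :=
  ((t.1 - t.2.1) ^ 2 + (t.2.1 - t.1) ^ 2, (t.2.2 - 3 * t.2.1) ^ 2 + (3 * t.2.1 - t.2.2) ^ 2,
    t.2.1 ^ 2, t.1 * t.2.1, t.1 * t.2.2, t.2.1 * t.2.2)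

/-- componentwise comparison -/
def leB (x y : V6) : Bool :=
  Nat.ble x.1 y.1 && Nat.ble x.2.1 y.2.1 && Nat.ble x.2.2.1 y.2.2.1 && Nat.ble x.2.2.2.1 y.2.2.2.1 &&
    Nat.ble x.2.2.2.2.1 y.2.2.2.2.1 && Nat.ble x.2.2.2.2.2 y.2.2.2.2.2

/-- componentwise subtraction -/
def subV (x y : V6) : V6 :=
  (x.1 - y.1, x.2.1 - y.2.1, x.2.2.1 - y.2.2.1, x.2.2.2.1 - y.2.2.2.1, x.2.2.2.2.1 - y.2.2.2.2.1,
    x.2.2.2.2.2 - y.2.2.2.2.2)

/-- is the vector zero -/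
def isZ (x : V6) : Bool :=
  Nat.beq x.1 0 && Nat.beq x.2.1 0 && Nat.beq x.2.2.1 0 && Nat.beq x.2.2.2.1 0 &&
    Nat.beq x.2.2.2.2.1 0 && Nat.beq x.2.2.2.2.2 0

/-- `true` means: no multiset of types from the list has total vector `r` -/
def nosol : ℕ → List (ℕ × ℕ × ℕ) → V6 → Bool
  | 0, _, _ => false
  | _ + 1, [], r => !isZ r
  | f + 1, t :: ts, r =>
    nosol f ts r && (if leB (vec t) r then nosol f (t :: ts) (subV r (vec t)) else true)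

/-- the possible types of nontrivial characters -/
def types18 : List (ℕ × ℕ × ℕ) :=
  [(2, 2, 6), (2, 2, 5), (2, 2, 4), (2, 2, 3), (0, 1, 4), (2, 1, 3), (1, 1, 3), (1, 1, 2), (0, 0, 3),
    (2, 1, 1), (0, 1, 1), (2, 0, 2), (0, 0, 2), (1, 1, 0), (0, 1, 0), (2, 0, 1), (1, 0, 1), (0, 0, 1)]

/-- the degree -/
def deg (t : ℕ × ℕ × ℕ) : ℕ := t.1 + 8 * t.2.1 + 6 * t.2.2

theorem no6 : nosol 150 (types18.filter fun t => !decide (6 ∣ deg t)) (8, 13, 9, 8, 24, 24) = true := by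
  decide +kernel

theorem no14 : nosol 150 (types18.filter fun t => !decide (14 ∣ deg t)) (8, 13, 9, 8, 24, 24) = true := by
  decide +kernel

theorem no21 : nosol 150 (types18.filter fun t => !decide (21 ∣ deg t)) (8, 13, 9, 8, 24, 24) = true := by
  decide +kernel

end Cfsg.Agent.Lib.Helper39.U33
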