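import Cfsg.Agent.Lib.Helper39.U33.Search

set_option autoImplicit false

namespace Cfsg.Agent.Lib.Helper39.U33

theorem isZ_zero : isZ (0 : V6) = true := by
  decide

theorem leB_add (x y : V6) : leB x (x + y) = true := by
  obtain ⟨x1, x2, x3, x4, x5, x6⟩ := x
  obtain ⟨y1, y2, y3, y4, y5, y6⟩ := y
  simp [leB, Nat.ble_eq]

theorem subV_add (x y : V6) : subV (x + y) x = y := by
  obtain ⟨x1, x2, x3, x4, x5, x6⟩ := x
  obtain ⟨y1, y2, y3, y4, y5, y6⟩ := y
  simp [subV]

/-- soundness of the search -/
theorem nosol_sound : ∀ (f : ℕ) (L : List (ℕ × ℕ × ℕ)) (r : V6), nosol f L r = true →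
    ∀ M : Multiset (ℕ × ℕ × ℕ), (∀ t ∈ M, t ∈ L) → (M.map vec).sum ≠ r := by
  intro f
  induction f with
  | zero =>
    intro L r h
    simp [nosol] at h
  | succ f ih =>
    intro L r h M hM
    cases L with
    | nil =>
      have hM0 : M = 0 := Multiset.eq_zero_of_forall_notMem (fun t ht => by simpa using hM t ht)
      subst hM0
      intro hr
      simp only [Multiset.map_zero, Multiset.sum_zero] at hr
      subst hr
      simp [nosol, isZ_zero] at h
    | cons t ts =>
      simp only [nosol, Bool.and_eq_true] at h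
      obtain ⟨h1, h2⟩ := h
      by_cases ht : t ∈ M
      · obtain ⟨M', rfl⟩ := Multiset.exists_cons_of_mem ht
        intro hr
        rw [Multiset.map_cons, Multiset.sum_cons] at hr
        subst hr
        rw [leB_add, if_pos rfl, subV_add] at h2
        exact ih (t :: ts) _ h2 M' (fun s hs => hM s (Multiset.mem_cons_of_mem hs)) rfl
      · apply ih ts r h1 M
        intro s hs
        rcases List.mem_cons.1 (hM s hs) with rfl | h3
        · exact absurd hs ht
        · exact h3

end Cfsg.Agent.Lib.Helper39.U33
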